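import Cfsg.Agent.H9.BN.A

/-! Dade's hypothesis: the character-theoretic end-game. -/

set_option autoImplicit false

namespace Cfsg.Agent.H9.NC

open Cfsg Subgroup Cfsg.Agent.H2
open scoped ComplexConjugate

universe u

theorem ch (Γ W : Type u) [Group Γ] [Fintype Γ] [Group W] [Fintype W] : CH Γ W := by
  classical
  intro r r1 rc av int
  obtain ⟨E⟩ := H1.exists_decomp (permRep ℂ W W)
  have hcW : (Nat.card W : ℂ) ≠ 0 := by exact_mod_cast Nat.card_pos.ne'
  have hcG : (Nat.card Γ : ℂ) ≠ 0 := by exact_mod_cast Nat.card_pos.ne'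
  have av' : ∀ F : W → ℂ, IsClassFunction W F →
      (Nat.card W : ℂ) * ∑ g, F (r g) = (Nat.card Γ : ℂ) * ∑ w, F w := fun F hF => by
    have := av (fun w => F w - F 1) (fun g h => by simp only [hF g h]) (sub_self _)
    simp only [Finset.sum_sub_distrib, Finset.sum_const, Finset.card_univ, nsmul_eq_mul,
      ← Nat.card_eq_fintype_card] at this
    linear_combination this
  have cl : ∀ j, IsClassFunction W (E.χ j) := fun j => Representation.char_conj (E.τ j)
  let φ : E.ι → Γ → ℂ := fun j g => E.χ j (r g)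
  have hirr : ∀ j, IsIrrCharacter Γ (φ j) := by
    intro j
    refine isIrr_of_norm_one ?_ ?_ (E.d_pos j) (by simp only [φ, r1, E.χ_one])
    · have h1 := H1.classInner_irr (E.isIrr j) (E.isIrr j)
      have h2 := av' (fun w => E.χ j w * conj (E.χ j w)) fun g h => by simp only [cl j g h]
      rw [if_pos rfl, classInner, inv_mul_eq_one₀ hcW] at h1
      rw [classInner, inv_mul_eq_one₀ hcG]
      refine mul_left_cancel₀ hcW ?_
      rw [h2, ← h1, mul_comm]
    · intro ψ hψ
      obtain ⟨n, hn⟩ := int _ (E.isIrr j) ψ hψ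
      have e : φ j = (fun g => E.χ j (r g) - E.χ j 1) + (E.d j : ℂ) • fun _ => (1 : ℂ) := by
        funext g
        simp [φ, E.χ_one]
      rw [e, classInner_add_left, classInner_smul_left, hn, H1.classInner_irr (H1.isIrr_one Γ) hψ]
      split_ifs
      · exact ⟨n + E.d j, by simp⟩
      · exact ⟨n, by simp⟩
  let K : Finset Γ := Finset.univ.filter fun g => r g = 1
  have hKm : ∀ g, g ∈ K ↔ r g = 1 := fun g => by simp [K]
  have hK : ∀ j g, r g = 1 → φ j g = E.d j := fun j g hg => by simp only [φ, hg, E.χ_one]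
  have hsum : ∀ j g, ∑ k ∈ K, φ j (g * k) = K.card * φ j g := by
    intro j
    obtain ⟨c, hc⟩ := sum_char_mul (hirr j) K fun g k hk => (hKm _).2 (by
      have := rc k g
      rwa [(hKm k).1 hk, isConj_one_left] at this)
    have h1 := hc 1
    simp only [one_mul] at h1
    rw [Finset.sum_congr rfl (fun k hk => hK j k ((hKm k).1 hk)), hK j 1 r1,
      Finset.sum_const, nsmul_eq_mul] at h1
    rw [mul_right_cancel₀ (by exact_mod_cast (E.d_pos j).ne') h1]
    exact hc
  have hF : ∀ g, ∑ j, φ j g = if g ∈ K then (Nat.card W : ℂ) else 0 := fun g => by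
    simp only [φ, ← E.char_eq, reg_char, hKm]
  have mul : ∀ {k l : Γ}, r k = 1 → r l = 1 → r (k * l) = 1 := fun {k l} hk hl => by
    have h1 : ∑ l ∈ K, ∑ j, φ j (k * l) = K.card * ∑ j, φ j k := by
      rw [Finset.sum_comm, Finset.mul_sum]
      exact Finset.sum_congr rfl fun j _ => hsum j k
    simp only [hF, if_pos ((hKm k).2 hk)] at h1
    rw [← Finset.sum_filter, Finset.sum_const, nsmul_eq_mul] at h1
    have h2 := mul_right_cancel₀ hcW h1
    exact (hKm _).1 (Finset.filter_card_eq (Nat.cast_injective h2) l ((hKm l).2 hl))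
  let M : Submonoid Γ := ⟨⟨{g | r g = 1}, mul⟩, r1⟩
  refine ⟨⟨M, fun {g} hg => ?_⟩, fun _ => Iff.rfl, ?_⟩
  · have : g⁻¹ = g ^ (orderOf g - 1) := by
      rw [inv_eq_iff_mul_eq_one, ← pow_succ', Nat.sub_add_cancel (orderOf_pos g), pow_orderOf_eq_one]
    exact this ▸ M.pow_mem hg _
  · have h1 := av' (fun w => if w = 1 then 1 else 0) fun g h => by simp only [conj_eq_one_iff]
    rw [Finset.sum_ite_eq', if_pos (Finset.mem_univ _), mul_one, ← Finset.sum_filter, Finset.sum_const,
      nsmul_eq_mul, mul_one] at h1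
    have h2 : Nat.card W * K.card = Nat.card Γ := by exact_mod_cast h1
    rw [← h2, mul_comm]
    congr 1
    exact Nat.subtype_card K hKm

end Cfsg.Agent.H9.NC
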